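import Cfsg.Agent.H40.Ru2.Fun

/-! Kernel check on the Sylow tables, in sixteen slices. -/

set_option autoImplicit false
set_option maxRecDepth 100000
set_option Elab.async false

namespace Cfsg.Agent.H40.Ru2

open Cfsg.Agent.CosetCert

theorem lt2_ok0 : allB (ltB 2) 11 0 = true := by decide +kernel

theorem lt2_ok1 : allB (ltB 2) 11 2048 = true := by decide +kernel

theorem lt2_ok2 : allB (ltB 2) 11 4096 = true := by decide +kernel

theorem lt2_ok3 : allB (ltB 2) 11 6144 = true := by decide +kernel

theorem lt2_ok4 : allB (ltB 2) 11 8192 = true := by decide +kernel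

theorem lt2_ok5 : allB (ltB 2) 11 10240 = true := by decide +kernel

theorem lt2_ok6 : allB (ltB 2) 11 12288 = true := by decide +kernel

theorem lt2_ok7 : allB (ltB 2) 11 14336 = true := by decide +kernel

theorem lt2_ok8 : allB (ltB 2) 11 16384 = true := by decide +kernel

theorem lt2_ok9 : allB (ltB 2) 11 18432 = true := by decide +kernel

theorem lt2_ok10 : allB (ltB 2) 11 20480 = true := by decide +kernel

theorem lt2_ok11 : allB (ltB 2) 11 22528 = true := by decide +kernel

theorem lt2_ok12 : allB (ltB 2) 11 24576 = true := by decide +kernel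

theorem lt2_ok13 : allB (ltB 2) 11 26624 = true := by decide +kernel

theorem lt2_ok14 : allB (ltB 2) 11 28672 = true := by decide +kernel

theorem lt2_ok15 : allB (ltB 2) 11 30720 = true := by decide +kernel

theorem lt2_ok {i : ℕ} (hi : i < 32768) : (ltB 2) i = true := by
  by_cases h0 : i < 2048
  · exact allB_spec lt2_ok0 i (by omega) (by omega)
  by_cases h1 : i < 4096
  · exact allB_spec lt2_ok1 i (by omega) (by omega)
  by_cases h2 : i < 6144
  · exact allB_spec lt2_ok2 i (by omega) (by omega)
  by_cases h3 : i < 8192
  · exact allB_spec lt2_ok3 i (by omega) (by omega)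
  by_cases h4 : i < 10240
  · exact allB_spec lt2_ok4 i (by omega) (by omega)
  by_cases h5 : i < 12288
  · exact allB_spec lt2_ok5 i (by omega) (by omega)
  by_cases h6 : i < 14336
  · exact allB_spec lt2_ok6 i (by omega) (by omega)
  by_cases h7 : i < 16384
  · exact allB_spec lt2_ok7 i (by omega) (by omega)
  by_cases h8 : i < 18432
  · exact allB_spec lt2_ok8 i (by omega) (by omega)
  by_cases h9 : i < 20480
  · exact allB_spec lt2_ok9 i (by omega) (by omega)
  by_cases h10 : i < 22528
  · exact allB_spec lt2_ok10 i (by omega) (by omega)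
  by_cases h11 : i < 24576
  · exact allB_spec lt2_ok11 i (by omega) (by omega)
  by_cases h12 : i < 26624
  · exact allB_spec lt2_ok12 i (by omega) (by omega)
  by_cases h13 : i < 28672
  · exact allB_spec lt2_ok13 i (by omega) (by omega)
  by_cases h14 : i < 30720
  · exact allB_spec lt2_ok14 i (by omega) (by omega)
  exact allB_spec lt2_ok15 i (by omega) (by omega)

end Cfsg.Agent.H40.Ru2
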