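import Cfsg.Agent.H40.Ru2.Fun

/-! Kernel check on the Sylow tables. -/

set_option autoImplicit false
set_option maxRecDepth 100000

namespace Cfsg.Agent.H40.Ru2

open Cfsg.Agent.CosetCert

theorem n_ok : allB nB 15 0 = true := by
  decide +kernel

end Cfsg.Agent.H40.Ru2
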