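import Cfsg.Agent.H40.Ru2.Fun

/-! Small kernel checks on the Sylow tables. -/

set_option autoImplicit false
set_option maxRecDepth 100000

namespace Cfsg.Agent.H40.Ru2

open Cfsg.Agent.CosetCert Cfsg.Agent.RuModel

theorem base_ok : Nat.beq (kV 0) kBase = true ∧
    Nat.beq (kV Dat.cz) (kMap (fun k => rotN k 2) kBase) = true ∧ Dat.cz < 32768 := by decide +kernel

theorem letter_sq_ok : ∀ l : Fin 8,
    (Nat.beq (kMap (runW stepL [l.val, l.val]) kBase) kBase ||
      Nat.beq (kMap (runW stepL [l.val, l.val]) kBase) (kMap (fun k => rotN k 2) kBase)) = true := by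
  decide +kernel

theorem odd_ok : Dat.oddW.all oddB = true := by decide +kernel

theorem gen_even_ok : ∀ j : Fin 3, evenB (Dat.genW.getD j.val []) = true := by decide +kernel

theorem gen_eight_ok : ∀ j : Fin 3, Nat.beq (runW stepT (repW [j.val] 8) 0) 0 = true := by decide +kernel

theorem norm_ok : ∀ (n : Fin 5) (j : Fin 3), normB n.val j.val = true := by decide +kernel

theorem tri_ok : ∀ a b c : Fin 3, triB a.val b.val c.val = true := by decide +kernel

theorem nzero_ok : bitB Dat.nBits 0 = true ∧ Dat.nGen.length = 5 ∧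
    Dat.nGen.all (fun a => Nat.blt a 32768) = true := by decide +kernel

theorem wit_ok : Dat.witL.all witB = true ∧ Dat.witL.map (fun e => e.1) = Dat.uL ∧ Dat.uL.length = 2 ∧
    Dat.uL.all (fun u => Nat.blt u 32768 && (Nat.beq (sqI u) 0 && (Nat.beq (stepT 0 u) (mulI u (gI' 0)) &&
      (Nat.beq (stepT 1 u) (mulI u (gI' 1)) && Nat.beq (stepT 2 u) (mulI u (gI' 2)))))) = true := by
  decide +kernel

theorem zwit_ok : (let e := Dat.zWit
    Nat.blt e.1 32768 && (Nat.blt e.2.1 32768 && (Nat.blt e.2.2.1 32768 && (Nat.blt e.2.2.2 32768 &&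
      (Nat.beq (mulI e.1 e.2.1) 0 && (Nat.beq (mulI e.2.2.1 e.2.2.2) 0 &&
        Nat.beq (comI e.1 e.2.1 e.2.2.1 e.2.2.2) Dat.cz)))))) = true := by decide +kernel

end Cfsg.Agent.H40.Ru2
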