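import Cfsg.Prelude.Def_CaseTheorems
import Cfsg.Agent.SporOut.RuIso
import Cfsg.Agent.SporOut.RuSchur
import Cfsg.Agent.SporOut.RuCover
import Cfsg.Agent.SporOut.RuOut

/-!
The derived group of the automorphism group `4.Ru` of the Rudvalis lattice is the double cover `2.Ru`: it
has order twice that of `Ru`, every quasisimple group with centre of order two and central quotient `Ru`
is isomorphic to it, and all its automorphisms are inner.
-/

set_option autoImplicit false

namespace Cfsg.Agent.H40.Ru2

open Subgroup Cfsg.Spor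
open scoped commutatorElement

/-! ## General facts -/

section General

variable {G : Type*} [Group G]

/-- Perfect stem extensions with kernel of full order are the derived group of the Hopf extension. -/
theorem equiv_commutator_hopf [Finite G] {Δ : Type*} [Group Δ] {τ : Δ →* G}
    (hτ : Cfsg.IsStemExtension τ) (hperf : commutator Δ = ⊤)
    (hcard : Nat.card τ.ker = Nat.card (CentralExt.schurMult G)) :
    Nonempty (↥(commutator (CentralExt.HopfExt G)) ≃* Δ) := by
  obtain ⟨ψ, hψ, hsurj, hmap⟩ := CentralExt.exists_hopfLift_stem hτ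
  let f : CentralExt.schurMult G →* τ.ker :=
    (ψ.comp (CentralExt.schurMult G).subtype).codRestrict τ.ker
      (fun z => hmap ▸ Subgroup.mem_map_of_mem ψ z.2)
  have hf : Function.Surjective f := by
    intro y
    have hy : (y : Δ) ∈ (CentralExt.schurMult G).map ψ := hmap.symm ▸ y.2
    obtain ⟨w, hw, hw'⟩ := hy
    exact ⟨⟨w, hw⟩, Subtype.ext hw'⟩
  haveI : Finite τ.ker := Finite.of_surjective f hf
  have hfi : Function.Injective f := (hf.bijective_of_nat_card_le hcard.symm.le).1
  refine ⟨MulEquiv.ofBijective (ψ.comp (commutator (CentralExt.HopfExt G)).subtype) ⟨?_, ?_⟩⟩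
  · rw [← MonoidHom.ker_eq_bot_iff, eq_bot_iff]
    intro x hx
    have hx1 : ψ (x : CentralExt.HopfExt G) = 1 := MonoidHom.mem_ker.1 hx
    have hm : (x : CentralExt.HopfExt G) ∈ CentralExt.schurMult G := by
      refine Subgroup.mem_inf.2 ⟨?_, x.2⟩
      rw [MonoidHom.mem_ker, ← hψ, MonoidHom.comp_apply, hx1, map_one]
    have h1 : f ⟨(x : CentralExt.HopfExt G), hm⟩ = f 1 := by
      rw [map_one]
      exact Subtype.ext hx1
    exact Subgroup.mem_bot.2 (Subtype.ext (congrArg Subtype.val (hfi h1) :))
  · intro d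
    have hd : d ∈ (commutator (CentralExt.HopfExt G)).map ψ := by
      rw [CentralExt.map_commutator_top ψ hsurj, hperf]
      exact mem_top d
    obtain ⟨w, hw, rfl⟩ := hd
    exact ⟨⟨w, hw⟩, rfl⟩

/-- An endomorphism of a perfect group that is the identity modulo the centre is the identity. -/
theorem eq_id_of_mod_center (hperf : commutator G = ⊤) (θ : G →* G)
    (h : ∀ x, x⁻¹ * θ x ∈ center G) (x : G) : θ x = x := by
  let d : G →* G :=
    { toFun := fun x => x⁻¹ * θ x
      map_one' := by simp
      map_mul' := fun x y => by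
        have hx : y⁻¹ * (x⁻¹ * θ x) = (x⁻¹ * θ x) * y⁻¹ := Subgroup.mem_center_iff.1 (h x) y⁻¹
        rw [map_mul]
        calc (x * y)⁻¹ * (θ x * θ y) = y⁻¹ * (x⁻¹ * θ x) * θ y := by group
          _ = (x⁻¹ * θ x) * (y⁻¹ * θ y) := by rw [hx]; group }
  have hle : commutator G ≤ d.ker := by
    rw [_root_.commutator_def, Subgroup.commutator_le]
    intro a _ b _
    rw [MonoidHom.mem_ker, map_commutatorElement, commutatorElement_eq_one_iff_mul_comm]
    exact (Subgroup.mem_center_iff.1 (h a) (d b)).symm
  rw [hperf] at hle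
  have hx : x⁻¹ * θ x = 1 := MonoidHom.mem_ker.1 (hle (mem_top x))
  exact (inv_mul_eq_one.1 hx).symm

end General

/-! ## The double cover -/

theorem finite_ru : Finite Ru := Nat.finite_of_card_ne_zero (by rw [RuAut.card_ru]; norm_num)

theorem finite_fourRu : Finite fourRu := Nat.finite_of_card_ne_zero (by
  rw [← (center fourRu).card_mul_index, RuAut.card_center]
  show 4 * Nat.card Ru ≠ 0
  rw [RuAut.card_ru]; norm_num)

theorem card_schurMult_ru : Nat.card (CentralExt.schurMult Ru) = 2 := by
  haveI := finite_ru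
  haveI := RuAut.ru_simple
  exact ((CentralExt.hasCyclicSchurMultiplier_iff 2).1
    (SporOut.Ru.hasCyclicSchurMultiplier_two SporOut.RuLine.card_K SporOut.RuLine.ruEquiv
      (SporOut.RuCover.two_dvd_schurMult_ru RuAut.card_center RuAut.card_ru))).2

theorem ru_not_comm : ¬ ∀ a b : Ru, a * b = b * a := by
  intro hab
  haveI := RuAut.ru_simple
  let _ : CommGroup Ru := { (inferInstance : Group Ru) with mul_comm := hab }
  have := IsSimpleGroup.prime_card (α := Ru)
  rw [RuAut.card_ru] at this
  exact absurd this (Nat.not_prime_of_dvd_of_lt (m := 2) (by norm_num) (by norm_num) (by norm_num))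

theorem center_ru : center Ru = ⊥ := by
  haveI := RuAut.ru_simple
  rcases IsSimpleGroup.eq_bot_or_eq_top_of_normal (center Ru) inferInstance with h | h
  · exact h
  · exact absurd (fun a b => Subgroup.mem_center_iff.1 (h ▸ mem_top b : b ∈ center Ru) a) ru_not_comm

theorem commutator_ru : commutator Ru = ⊤ := by
  haveI := RuAut.ru_simple
  rcases IsSimpleGroup.eq_bot_or_eq_top_of_normal (commutator Ru) inferInstance with h | h
  · refine absurd (fun a b => commutatorElement_eq_one_iff_mul_comm.1 ?_) ru_not_comm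
    rw [← Subgroup.mem_bot, ← h]
    exact Subgroup.commutator_mem_commutator (mem_top a) (mem_top b)
  · exact h

/-- The projection of `2.Ru` onto `Ru`. -/
def proj : ↥(commutator fourRu) →* Ru :=
  (QuotientGroup.mk' (center fourRu)).comp (commutator fourRu).subtype

theorem proj_surjective : Function.Surjective proj := by
  intro q
  have hq : q ∈ (commutator fourRu).map (QuotientGroup.mk' (center fourRu)) := by
    rw [CentralExt.map_commutator_top _ (QuotientGroup.mk'_surjective _), commutator_ru]
    exact mem_top q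
  obtain ⟨x, hx, rfl⟩ := hq
  exact ⟨⟨x, hx⟩, rfl⟩

/-- (b) -/
theorem commutator_perfect : commutator ↥(commutator fourRu) = ⊤ := by
  have hsup : commutator fourRu ⊔ center fourRu = ⊤ := by
    refine top_le_iff.1 fun g _ => ?_
    obtain ⟨⟨d, hd⟩, he⟩ := proj_surjective (g : Ru)
    have : g = d * (d⁻¹ * g) := by group
    rw [this]
    exact mul_mem (mem_sup_left hd) (mem_sup_right (QuotientGroup.eq.1 he))
  have hle : commutator fourRu ≤ (commutator ↥(commutator fourRu)).map (commutator fourRu).subtype := by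
    refine CentralExt.commutator_le_of_sup_center (top_le_iff.1 fun g _ => ?_)
    obtain ⟨q, hq⟩ : ∃ q : commutator ↥(commutator fourRu), proj q.1 = (g : Ru) := by
      have hg : (g : Ru) ∈ (commutator ↥(commutator fourRu)).map proj := by
        rw [CentralExt.map_commutator_top proj proj_surjective, commutator_ru]
        exact mem_top _
      obtain ⟨x, hx, e⟩ := hg
      exact ⟨⟨x, hx⟩, e⟩
    have : g = ((q.1 : commutator fourRu) : fourRu) * (((q.1 : commutator fourRu) : fourRu)⁻¹ * g) := by
      group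
    rw [this]
    exact mul_mem (mem_sup_left ⟨q.1, q.2, rfl⟩) (mem_sup_right (QuotientGroup.eq.1 hq))
  refine top_le_iff.1 fun x _ => ?_
  obtain ⟨y, hy, e⟩ := hle x.2
  exact (Subtype.ext e : y = x) ▸ hy

theorem proj_ker_le_center : proj.ker ≤ center ↥(commutator fourRu) := fun x hx => by
  have hxc : (x : fourRu) ∈ center fourRu :=
    (QuotientGroup.eq_one_iff (x : fourRu)).1 (MonoidHom.mem_ker.1 hx)
  exact Subgroup.mem_center_iff.2 fun y => Subtype.ext (Subgroup.mem_center_iff.1 hxc y)

theorem proj_stem : Cfsg.IsStemExtension proj :=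
  ⟨proj_surjective, proj_ker_le_center, by rw [commutator_perfect]; exact le_top⟩

theorem center_eq_ker : center ↥(commutator fourRu) = proj.ker := by
  refine le_antisymm (fun x hx => ?_) proj_ker_le_center
  have := CentralExt.mem_center_map proj_surjective hx
  rw [center_ru, Subgroup.mem_bot] at this
  exact MonoidHom.mem_ker.2 this

theorem card_proj_ker : Nat.card proj.ker = 2 := by
  have hd : Nat.card proj.ker ∣ 2 :=
    card_schurMult_ru ▸ CentralExt.card_ker_dvd_schurMult proj_stem
  refine ((Nat.dvd_prime Nat.prime_two).1 hd).resolve_left fun h1 => ?_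
  have hbot : proj.ker = ⊥ := Subgroup.card_eq_one.1 h1
  have hm : (SporOut.RuCover.jEl * SporOut.RuCover.jEl : fourRu) ∈ commutator fourRu := by
    rw [SporOut.RuCover.jj_eq_comm]
    exact commutator_mem_commutator (mem_top _) (mem_top _)
  have hk : (⟨_, hm⟩ : commutator fourRu) ∈ proj.ker :=
    MonoidHom.mem_ker.2 ((QuotientGroup.eq_one_iff _).2 SporOut.RuCover.jj_central)
  rw [hbot, Subgroup.mem_bot] at hk
  exact SporOut.RuCover.jj_ne_one (congrArg Subtype.val hk)

/-- (c) -/
theorem center_commutator : Nat.card (Subgroup.center ↥(commutator fourRu)) = 2 := by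
  rw [center_eq_ker]
  exact card_proj_ker

/-- (a) -/
theorem card_commutator : Nat.card ↥(commutator fourRu) = 2 * 145926144000 := by
  rw [← proj.ker.card_mul_index, card_proj_ker, Subgroup.index_ker,
    MonoidHom.range_eq_top.2 proj_surjective, Subgroup.card_top, RuAut.card_ru]

/-- (d) -/
theorem exists_equiv {G : Type*} [Group G] [Finite G] (L : Subgroup G)
    (hL : Cfsg.IsQuasisimple L) (hZ : Nat.card (Subgroup.center ↥L) = 2)
    (hLX : Cfsg.Spor.IsoRu (↥L ⧸ Subgroup.center ↥L)) :
    Nonempty (↥(commutator fourRu) ≃* ↥L) := by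
  haveI := finite_ru
  obtain ⟨e⟩ := hLX
  have hperf : commutator ↥L = ⊤ := hL.1.commutator_eq_top
  let τ : ↥L →* Ru := e.toMonoidHom.comp (QuotientGroup.mk' (center ↥L))
  have hk : τ.ker = center ↥L := by
    rw [CentralExt.ker_mulEquiv_comp, QuotientGroup.ker_mk']
  have hτ : Cfsg.IsStemExtension τ :=
    ⟨e.surjective.comp (QuotientGroup.mk'_surjective _), hk.le, by rw [hperf]; exact le_top⟩
  obtain ⟨i⟩ := equiv_commutator_hopf hτ hperf (by rw [hk, hZ, card_schurMult_ru])
  obtain ⟨j⟩ := equiv_commutator_hopf proj_stem commutator_perfect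
    (by rw [card_proj_ker, card_schurMult_ru])
  exact ⟨j.symm.trans i⟩

/-- (e) -/
theorem aut_inner (φ : MulAut ↥(commutator fourRu)) :
    ∃ l : ↥(commutator fourRu), ∀ x, φ x = l * x * l⁻¹ := by
  let e : ↥(commutator fourRu) ⧸ center ↥(commutator fourRu) ≃* Ru :=
    (QuotientGroup.quotientMulEquivOfEq center_eq_ker).trans
      (QuotientGroup.quotientKerEquivOfSurjective proj proj_surjective)
  have hout := SporOut.Ru.card_out_of_equiv SporOut.RuLine.card_K (e.trans SporOut.RuLine.ruEquiv)
  have hinn : Cfsg.Inn (↥(commutator fourRu) ⧸ center ↥(commutator fourRu)) = ⊤ :=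
    Subgroup.index_eq_one.1 hout
  have hmapc : (center ↥(commutator fourRu)).map φ.toMonoidHom = center ↥(commutator fourRu) := by
    refine le_antisymm ?_ fun x hx => ?_
    · rintro _ ⟨x, hx, rfl⟩
      exact CentralExt.mem_center_map φ.surjective hx
    · exact ⟨φ.symm x, CentralExt.mem_center_map (ψ := φ.symm.toMonoidHom) φ.symm.surjective hx,
        φ.apply_symm_apply x⟩
  let φ' := QuotientGroup.congr (center ↥(commutator fourRu)) (center ↥(commutator fourRu)) φ hmapc
  obtain ⟨q, hq⟩ : φ' ∈ Cfsg.Inn (↥(commutator fourRu) ⧸ center ↥(commutator fourRu)) :=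
    hinn ▸ mem_top φ'
  obtain ⟨l, rfl⟩ := QuotientGroup.mk_surjective q
  refine ⟨l, fun x => ?_⟩
  have hmod : ∀ y, y⁻¹ * ((MulAut.conj l⁻¹).toMonoidHom.comp φ.toMonoidHom) y ∈
      center ↥(commutator fourRu) := fun y => by
    have h := DFunLike.congr_fun hq ((y : ↥(commutator fourRu) ⧸ center ↥(commutator fourRu)))
    have h' : ((l * y * l⁻¹ : ↥(commutator fourRu)) :
        ↥(commutator fourRu) ⧸ center ↥(commutator fourRu)) = (φ y : _) := h
    rw [← QuotientGroup.eq]
    show ((y : ↥(commutator fourRu)) : _ ⧸ center ↥(commutator fourRu)) =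
      ((l⁻¹ * φ y * l⁻¹⁻¹ : ↥(commutator fourRu)) : _ ⧸ center ↥(commutator fourRu))
    simp only [QuotientGroup.mk_mul, QuotientGroup.mk_inv, inv_inv] at h' ⊢
    rw [← h']
    group
  have := eq_id_of_mod_center commutator_perfect _ hmod x
  have hx : l⁻¹ * φ x * l⁻¹⁻¹ = x := this
  calc φ x = l * (l⁻¹ * φ x * l⁻¹⁻¹) * l⁻¹ := by group
    _ = l * x * l⁻¹ := by rw [hx]

end Cfsg.Agent.H40.Ru2
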