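import Cfsg.Agent.RuModel.Order
import Cfsg.Agent.H40.Ru2.ChkQ
import Cfsg.Agent.H40.Ru2.ChkW
import Cfsg.Agent.H40.Ru2.ChkL0
import Cfsg.Agent.H40.Ru2.ChkL1
import Cfsg.Agent.H40.Ru2.ChkL2
import Cfsg.Agent.H40.Ru2.ChkSmall

/-!
# The numbered elements of a Sylow 2-subgroup of `2.Ru` (owner: helper40)
-/

set_option autoImplicit false
set_option maxRecDepth 4000

namespace Cfsg.Agent.H40.Ru2

open Cfsg.Agent.CosetCert Cfsg.Agent.RuModel Cfsg.Spor

/-- One of the seven generators or the scalar `i`. -/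
noncomputable def letL (l : ℕ) : fourRu := if h : l < 7 then gen ⟨l, by omega⟩ else iS

/-- The element of a word, first letter first. -/
noncomputable def evL : List ℕ → fourRu
  | [] => 1
  | l :: w => evL w * letL l

theorem evL_append : ∀ u v : List ℕ, evL (u ++ v) = evL v * evL u
  | [], v => by simp [evL]
  | l :: u, v => by rw [List.cons_append, evL, evL, evL_append u v, mul_assoc]

theorem evL_repW (w : List ℕ) : ∀ n, evL (repW w n) = evL w ^ n
  | 0 => by simp [repW, evL]
  | n + 1 => by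
    rw [show repW w (n + 1) = w ++ repW w n from rfl, evL_append, evL_repW w n, pow_succ]

theorem letL_smul (l : ℕ) (k : Fin 16240) : (letL l • k).val = stepL l k.val := by
  rcases lt_or_ge l 7 with h | h
  · have hb : Nat.blt l 7 = true := by simpa [Nat.blt_eq] using h
    rw [stepL, hb, letL, dif_pos h]
    exact congrArg Fin.val (gen_smul ⟨l, by omega⟩ k)
  · have hb : Nat.blt l 7 = false := by
      rcases e : Nat.blt l 7
      · rfl
      · rw [Nat.blt_eq] at e; omega
    rw [stepL, hb, letL, dif_neg (not_lt.2 h)]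
    have := congrArg Fin.val (iS_pow_smul 1 k)
    rw [pow_one] at this
    exact this

theorem evL_smul : ∀ (w : List ℕ) (k : Fin 16240), (evL w • k).val = runW stepL w k.val
  | [], k => by simp [evL, runW]
  | l :: w, k => by
    rw [evL, mul_smul, evL_smul w, letL_smul]
    rfl

/-- The images of the base points. -/
noncomputable def key (f : fourRu) : ℕ :=
  pack5 (f • B1).val (f • B2).val (f • B3).val (f • B4).val (f • B5).val

theorem part5_pack5 {a b c d e : ℕ} (ha : a < 65536) (hb : b < 65536) (hc : c < 65536) (hd : d < 65536)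
    (he : e < 65536) : part5 (pack5 a b c d e) 0 = a ∧ part5 (pack5 a b c d e) 1 = b ∧
      part5 (pack5 a b c d e) 2 = c ∧ part5 (pack5 a b c d e) 3 = d ∧ part5 (pack5 a b c d e) 4 = e := by
  have hm : ∀ x y, Nat.mod x y = x % y := fun _ _ => rfl
  simp only [part5, pack5, Nat.add_eq, Nat.mul_eq, Nat.shiftRight_eq, hm,
    Nat.shiftRight_eq_div_pow]
  norm_num
  omega

theorem val_lt16 (k : Fin 16240) : k.val < 65536 := lt_trans k.isLt (by norm_num)

theorem kMap_key (s : ℕ → ℕ) (g : fourRu) :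
    kMap s (key g) = pack5 (s (g • B1).val) (s (g • B2).val) (s (g • B3).val) (s (g • B4).val)
      (s (g • B5).val) := by
  obtain ⟨h0, h1, h2, h3, h4⟩ := part5_pack5 (val_lt16 (g • B1)) (val_lt16 (g • B2)) (val_lt16 (g • B3))
    (val_lt16 (g • B4)) (val_lt16 (g • B5))
  simp only [kMap, key, h0, h1, h2, h3, h4]

theorem key_mul {f : fourRu} {s : ℕ → ℕ} (h : ∀ k : Fin 16240, (f • k).val = s k.val) (g : fourRu) :
    key (f * g) = kMap s (key g) := by
  rw [kMap_key]
  simp only [key, mul_smul, h]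

theorem key_one : key 1 = kBase := by
  simp only [key, one_smul]
  rfl

theorem key_injective : Function.Injective key := by
  intro f g h
  have e : ∀ n, part5 (key f) n = part5 (key g) n := fun n => by rw [h]
  obtain ⟨a0, a1, a2, a3, a4⟩ := part5_pack5 (val_lt16 (f • B1)) (val_lt16 (f • B2)) (val_lt16 (f • B3))
    (val_lt16 (f • B4)) (val_lt16 (f • B5))
  obtain ⟨b0, b1, b2, b3, b4⟩ := part5_pack5 (val_lt16 (g • B1)) (val_lt16 (g • B2)) (val_lt16 (g • B3))
    (val_lt16 (g • B4)) (val_lt16 (g • B5))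
  have c0 := (a0.symm.trans (e 0)).trans b0
  have c1 := (a1.symm.trans (e 1)).trans b1
  have c2 := (a2.symm.trans (e 2)).trans b2
  have c3 := (a3.symm.trans (e 3)).trans b3
  have c4 := (a4.symm.trans (e 4)).trans b4
  have h1 : g⁻¹ * f = 1 := eq_one_of_fix
    (by rw [mul_smul, Fin.ext c0, inv_smul_smul]) (by rw [mul_smul, Fin.ext c1, inv_smul_smul])
    (by rw [mul_smul, Fin.ext c2, inv_smul_smul]) (by rw [mul_smul, Fin.ext c3, inv_smul_smul])
    (by rw [mul_smul, Fin.ext c4, inv_smul_smul])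
  exact (inv_mul_eq_one.1 h1).symm

theorem key_evL (w : List ℕ) (g : fourRu) : key (evL w * g) = kMap (runW stepL w) (key g) :=
  key_mul (evL_smul w) g

/-- A generator of the Sylow subgroup. -/
noncomputable def tg (j : ℕ) : fourRu := evL (Dat.genW.getD j [])

/-- The element of a word in the Sylow subgroup. -/
noncomputable def evT : List ℕ → fourRu
  | [] => 1
  | j :: w => evT w * tg j

theorem evT_append : ∀ u v : List ℕ, evT (u ++ v) = evT v * evT u
  | [], v => by simp [evT]
  | l :: u, v => by rw [List.cons_append, evT, evT, evT_append u v, mul_assoc]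

theorem evT_repW (w : List ℕ) : ∀ n, evT (repW w n) = evT w ^ n
  | 0 => by simp [repW, evT]
  | n + 1 => by
    rw [show repW w (n + 1) = w ++ repW w n from rfl, evT_append, evT_repW w n, pow_succ]

theorem tg_smul (j : Fin 3) (k : Fin 16240) : (tg j.val • k).val = stepQ j.val k.val := by
  have h := allB_spec_zero (q_ok j) (by norm_num : 4060 ≤ 2 ^ 12) (lineOf k).isLt
  simp only [Bool.or_eq_true, qB] at h
  rcases h with h | h
  · exact absurd (Nat.le_of_ble_eq_true h) (not_le.2 (lineOf k).isLt)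
  · have e := Nat.eq_of_beq_eq_true h
    have e' : (tg j.val • repOf (lineOf k)).val = (qTree j.val).get 16 (lineOf k).val := by
      rw [tg, evL_smul, e]
      rfl
    conv_lhs => rw [eq_rot_repOf k, smul_rot]
    show rot _ _ = rotN _ _
    rw [e', rotN_eq]
    rfl

theorem evT_smul : ∀ (w : List ℕ), (∀ a ∈ w, a < 3) → ∀ k : Fin 16240,
    (evT w • k).val = runW stepQ w k.val
  | [], _, k => by simp [evT, runW]
  | j :: w, hw, k => by
    rw [evT, mul_smul, evT_smul w (fun a ha => hw a (List.mem_cons_of_mem _ ha)),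
      tg_smul ⟨j, hw j List.mem_cons_self⟩]
    rfl

theorem key_evT (w : List ℕ) (hw : ∀ a ∈ w, a < 3) (g : fourRu) :
    key (evT w * g) = kMap (runW stepQ w) (key g) :=
  key_mul (evT_smul w hw) g

theorem lt_all : ∀ (j : Fin 3), ∀ {i : ℕ}, i < 32768 →
    stepT j.val i < 32768 ∧ kV (stepT j.val i) = kMap (stepQ j.val) (kV i) := by
  intro j i hi
  have h : ltB j.val i = true := by
    fin_cases j
    · exact lt0_ok hi
    · exact lt1_ok hi
    · exact lt2_ok hi
  simp only [ltB, Bool.and_eq_true, Nat.blt_eq] at h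
  exact ⟨h.1, Nat.eq_of_beq_eq_true h.2⟩

theorem run_key : ∀ (w : List ℕ), (∀ a ∈ w, a < 3) → ∀ (f : fourRu) (i : ℕ), i < 32768 →
    key f = kV i → runW stepT w i < 32768 ∧ key (evT w * f) = kV (runW stepT w i)
  | [], _, f, i, hi, hf => by simp [evT, runW, hi, hf]
  | j :: w, hw, f, i, hi, hf => by
    obtain ⟨h1, h2⟩ := lt_all ⟨j, hw j List.mem_cons_self⟩ hi
    have hk : key (tg j * f) = kV (stepT j i) := by
      rw [key_mul (tg_smul ⟨j, hw j List.mem_cons_self⟩) f, hf]
      exact h2.symm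
    have := run_key w (fun a ha => hw a (List.mem_cons_of_mem _ ha)) (tg j * f) (stepT j i) h1 hk
    rw [evT, mul_assoc]
    exact this

theorem wList_lt (c : ℕ) : ∀ a ∈ wList c, a < 3 := by
  have key : ∀ (n c : ℕ), ∀ a ∈ (Nat.rec (motive := fun _ => ℕ → List ℕ) (fun _ => [])
      (fun _ ih x => cond (Nat.beq x 0) [] (List.cons (Nat.sub (Nat.mod x 4) 1) (ih (Nat.div x 4)))) n c),
      a < 3 := by
    intro n
    induction n with
    | zero => intro c a ha; simp at ha
    | succ n ih =>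
      intro c a ha
      rcases e : Nat.beq c 0
      · rw [show ((Nat.rec (motive := fun _ => ℕ → List ℕ) (fun _ => [])
          (fun _ ih x => cond (Nat.beq x 0) [] (List.cons (Nat.sub (Nat.mod x 4) 1) (ih (Nat.div x 4))))
          (n + 1) c)) = cond (Nat.beq c 0) [] (List.cons (Nat.sub (Nat.mod c 4) 1) _) from rfl, e] at ha
        rcases List.mem_cons.1 ha with rfl | ha
        · show c % 4 - 1 < 3
          omega
        · exact ih _ a ha
      · rw [show ((Nat.rec (motive := fun _ => ℕ → List ℕ) (fun _ => [])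
          (fun _ ih x => cond (Nat.beq x 0) [] (List.cons (Nat.sub (Nat.mod x 4) 1) (ih (Nat.div x 4))))
          (n + 1) c)) = cond (Nat.beq c 0) [] (List.cons (Nat.sub (Nat.mod c 4) 1) _) from rfl, e] at ha
        simp at ha
  exact key 16 c

theorem wordT_lt (i : ℕ) : ∀ a ∈ wordT i, a < 3 := wList_lt _

/-- A numbered element. -/
noncomputable def el (i : ℕ) : fourRu := evT (wordT i)

theorem key_one_kV : key 1 = kV 0 := by
  rw [key_one]; exact (Nat.eq_of_beq_eq_true base_ok.1).symm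

theorem w_spec {i : ℕ} (hi : i < 32768) : runW stepT (wordT i) 0 = i ∧ srtB i = true := by
  have h := w_ok hi
  simp only [wB, Bool.and_eq_true] at h
  exact ⟨Nat.eq_of_beq_eq_true h.1, h.2⟩

theorem key_el {i : ℕ} (hi : i < 32768) : key (el i) = kV i := by
  have h := (run_key _ (wordT_lt i) 1 0 (by norm_num) key_one_kV).2
  rwa [mul_one, (w_spec hi).1] at h

theorem kV_inj {i j : ℕ} (hi : i < 32768) (hj : j < 32768) (h : kV i = kV j) : i = j := by
  have hpos : ∀ {n : ℕ}, n < 32768 → Dat.posT.get 16 n < 32768 ∧ Dat.srtT.get 16 (Dat.posT.get 16 n) = n ∧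
      (Dat.posT.get 16 n < 32767 → kV n < kV (Dat.srtT.get 16 (Dat.posT.get 16 n + 1))) := by
    intro n hn
    have := (w_spec hn).2
    simp only [srtB, Bool.and_eq_true, Bool.or_eq_true, Nat.blt_eq, Nat.ble_eq] at this
    exact ⟨this.1, Nat.eq_of_beq_eq_true this.2.1, fun hlt => this.2.2.resolve_left (not_le.2 hlt)⟩
  let p : Fin 32768 → Fin 32768 := fun n => ⟨Dat.posT.get 16 n.val, (hpos n.isLt).1⟩
  have hp : Function.Injective p := fun a b e => Fin.ext (by
    have e' := congrArg Fin.val e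
    rw [← (hpos a.isLt).2.1, ← (hpos b.isLt).2.1]
    exact congrArg _ e')
  have hps := (Finite.injective_iff_surjective.1 hp)
  let f : Fin (32767 + 1) → ℕ := fun q => kV (Dat.srtT.get 16 q.val)
  have hf : StrictMono f := by
    refine Fin.strictMono_iff_lt_succ.2 fun q => ?_
    obtain ⟨n, hn⟩ := hps ⟨q.val, by omega⟩
    have hv : Dat.posT.get 16 n.val = q.val := congrArg Fin.val hn
    have h3 := (hpos n.isLt).2.2 (hv ▸ q.isLt)
    have h2 := (hpos n.isLt).2.1
    rw [hv] at h2 h3
    show kV (Dat.srtT.get 16 q.val) < kV (Dat.srtT.get 16 (q.val + 1))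
    rw [h2]
    exact h3
  have hfi : f ⟨Dat.posT.get 16 i, (hpos hi).1⟩ = f ⟨Dat.posT.get 16 j, (hpos hj).1⟩ := by
    show kV (Dat.srtT.get 16 (Dat.posT.get 16 i)) = kV (Dat.srtT.get 16 (Dat.posT.get 16 j))
    rw [(hpos hi).2.1, (hpos hj).2.1, h]
  have := congrArg Fin.val (hf.injective hfi)
  simp only at this
  rw [← (hpos hi).2.1, ← (hpos hj).2.1, this]

theorem el_inj {i j : ℕ} (hi : i < 32768) (hj : j < 32768) (h : el i = el j) : i = j :=
  kV_inj hi hj (by rw [← key_el hi, ← key_el hj, h])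

theorem el_zero : el 0 = 1 := key_injective ((key_el (by norm_num)).trans key_one_kV.symm)

theorem evT_el {w : List ℕ} (hw : ∀ a ∈ w, a < 3) {i : ℕ} (hi : i < 32768) :
    runW stepT w i < 32768 ∧ el (runW stepT w i) = evT w * el i := by
  obtain ⟨h1, h2⟩ := run_key w hw (el i) i hi (key_el hi)
  exact ⟨h1, key_injective ((key_el h1).trans h2.symm)⟩

theorem evT_eq {w : List ℕ} (hw : ∀ a ∈ w, a < 3) :
    runW stepT w 0 < 32768 ∧ el (runW stepT w 0) = evT w := by
  obtain ⟨h1, h2⟩ := evT_el hw (i := 0) (by norm_num)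
  exact ⟨h1, by rw [h2, el_zero, mul_one]⟩

theorem el_mul {a b : ℕ} (hb : b < 32768) : mulI a b < 32768 ∧ el a * el b = el (mulI a b) := by
  obtain ⟨h1, h2⟩ := evT_el (wordT_lt a) hb
  exact ⟨h1, h2.symm⟩

theorem el_step (j : Fin 3) {i : ℕ} (hi : i < 32768) :
    stepT j.val i < 32768 ∧ el (stepT j.val i) = tg j.val * el i := by
  obtain ⟨h1, h2⟩ := evT_el (w := [j.val]) (by simp) hi
  exact ⟨h1, by simpa [evT, runW] using h2⟩

theorem tg_eq (j : Fin 3) : gI' j.val < 32768 ∧ el (gI' j.val) = tg j.val := by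
  obtain ⟨h1, h2⟩ := el_step j (i := 0) (by norm_num)
  exact ⟨h1, by rw [gI', h2, el_zero, mul_one]⟩

/-- The Sylow subgroup. -/
noncomputable def T0 : Subgroup fourRu where
  carrier := {f | ∃ i < 32768, f = el i}
  one_mem' := ⟨0, by norm_num, el_zero.symm⟩
  mul_mem' := by
    rintro _ _ ⟨a, ha, rfl⟩ ⟨b, hb, rfl⟩
    exact ⟨mulI a b, (el_mul hb).1, (el_mul hb).2⟩
  inv_mem' := by
    intro f hf
    have hp : ∀ n : ℕ, f ^ n ∈ ({f | ∃ i < 32768, f = el i} : Set fourRu) := by
      intro n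
      induction n with
      | zero => exact ⟨0, by norm_num, by rw [pow_zero, el_zero]⟩
      | succ n ih =>
        obtain ⟨a, ha, ea⟩ := ih
        obtain ⟨b, hb, eb⟩ := hf
        exact ⟨mulI a b, (el_mul hb).1, by rw [pow_succ, ea, eb, (el_mul hb).2]⟩
    have : f⁻¹ = f ^ (orderOf f - 1) := by
      refine inv_eq_of_mul_eq_one_right ?_
      rw [← pow_succ', Nat.sub_add_cancel (orderOf_pos f), pow_orderOf_eq_one]
    rw [this]
    exact hp _

theorem el_mem {i : ℕ} (hi : i < 32768) : el i ∈ T0 := ⟨i, hi, rfl⟩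

theorem tg_mem (j : Fin 3) : tg j.val ∈ T0 := (tg_eq j).2 ▸ el_mem (tg_eq j).1

theorem evT_mem {w : List ℕ} (hw : ∀ a ∈ w, a < 3) : evT w ∈ T0 :=
  (evT_eq hw).2 ▸ el_mem (evT_eq hw).1

theorem card_T0 : Nat.card T0 = 32768 := by
  let f : Fin 32768 → T0 := fun i => ⟨el i.val, el_mem i.isLt⟩
  have hf : Function.Bijective f := by
    refine ⟨fun a b e => Fin.ext (el_inj a.isLt b.isLt (congrArg Subtype.val e)), ?_⟩
    rintro ⟨g, i, hi, rfl⟩
    exact ⟨⟨i, hi⟩, rfl⟩
  rw [← Nat.card_congr (Equiv.ofBijective f hf), Nat.card_fin]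

end Cfsg.Agent.H40.Ru2
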