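import Cfsg.Agent.H40.Ru2.Parity
import Cfsg.Agent.H40.Ru2.Cover
import Cfsg.Agent.H40.Ru2.ChkS
import Cfsg.Agent.H40.Ru2.ChkC
import Cfsg.Agent.H40.Ru2.ChkI
import Cfsg.Agent.H40.Ru2.ChkN

/-!
# The facts about `2.Ru` needed for the standard form theorem (owner: helper40)
-/

set_option autoImplicit false
set_option maxRecDepth 4000

namespace Cfsg.Agent.H40.Ru2

open Cfsg.Agent.CosetCert Cfsg.Agent.RuModel Cfsg.Spor Subgroup
open scoped commutatorElement

theorem sq_spec {i : ℕ} (hi : i < 32768) :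
    sqI i < 32768 ∧ el (sqI i) = el i * el i ∧ sqI (sqI i) ≠ Dat.cz := by
  have h := sq_ok hi
  simp only [sqB, fourB, Bool.and_eq_true, Bool.not_eq_true'] at h
  have e := Nat.eq_of_beq_eq_true h.1
  obtain ⟨a, b⟩ := el_mul (a := i) hi
  refine ⟨e ▸ a, by rw [e, b], fun hz => ?_⟩
  rw [hz, show Nat.beq Dat.cz Dat.cz = true from Nat.beq_refl _] at h
  exact Bool.noConfusion h.2

theorem memB_iff : ∀ (L : List ℕ) (i : ℕ), memB L i = true ↔ i ∈ L
  | [], i => by simp [memB]
  | a :: L, i => by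
    show (Nat.beq a i || memB L i) = true ↔ _
    rw [Bool.or_eq_true, memB_iff L i, List.mem_cons]
    refine or_congr ⟨fun h => (Nat.eq_of_beq_eq_true h).symm, fun h => h ▸ Nat.beq_refl _⟩ Iff.rfl

theorem el_commute {i : ℕ} (hi : i < 32768) (j : Fin 3)
    (h : Nat.beq (stepT j.val i) (mulI i (gI' j.val)) = true) : Commute (tg j.val) (el i) := by
  show tg j.val * el i = el i * tg j.val
  rw [← (el_step j hi).2, Nat.eq_of_beq_eq_true h, ← (tg_eq j).2, (el_mul (tg_eq j).1).2]

theorem central_sq {i : ℕ} (hi : i < 32768) (h : ∀ j : Fin 3, Commute (tg j.val) (el i)) :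
    el i * el i = 1 := by
  have hc := cen_ok hi
  have e : ∀ j : Fin 3, Nat.beq (stepT j.val i) (mulI i (gI' j.val)) = true := by
    intro j
    have : stepT j.val i = mulI i (gI' j.val) := el_inj (el_step j hi).1 (el_mul (tg_eq j).1).1 (by
      rw [(el_step j hi).2, ← (el_mul (tg_eq j).1).2, (tg_eq j).2]
      exact h j)
    rw [this]
    exact Nat.beq_refl _
  simp only [cenB, show Nat.beq (stepT 0 i) (mulI i (gI' 0)) = true from e 0,
    show Nat.beq (stepT 1 i) (mulI i (gI' 1)) = true from e 1,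
    show Nat.beq (stepT 2 i) (mulI i (gI' 2)) = true from e 2,
    Bool.and_self, Bool.not_true, Bool.false_or, Bool.and_eq_true] at hc
  rw [← (sq_spec hi).2.1, Nat.eq_of_beq_eq_true hc.2, el_zero]

theorem u_spec {c : ℕ} (hc : c ∈ Dat.uL) : c < 32768 ∧ (∀ j : Fin 3, Commute (tg j.val) (el c)) := by
  have h := wit_ok.2.2.2
  rw [List.all_eq_true] at h
  have := h c hc
  simp only [Bool.and_eq_true, Nat.blt_eq] at this
  refine ⟨this.1, fun j => el_commute this.1 j ?_⟩
  fin_cases j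
  · exact this.2.2.1
  · exact this.2.2.2.1
  · exact this.2.2.2.2

theorem evT_commute {f : fourRu} (h : ∀ j : Fin 3, Commute (tg j.val) f) :
    ∀ {w : List ℕ}, (∀ a ∈ w, a < 3) → Commute (evT w) f
  | [], _ => Commute.one_left f
  | j :: w, hw => (evT_commute h fun a ha => hw a (List.mem_cons_of_mem _ ha)).mul_left
      (h ⟨j, hw j List.mem_cons_self⟩)

theorem mem_repW (j : ℕ) : ∀ n, ∀ x ∈ repW [j] n, x = j
  | 0, x, hx => by simp [repW] at hx
  | n + 1, x, hx => by
    rcases List.mem_cons.1 (show x ∈ j :: repW [j] n from hx) with h | h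
    · exact h
    · exact mem_repW j n x h

/-- Conjugate in the derived subgroup to one of the two central involutions. -/
def Fused (i : ℕ) : Prop :=
  i < 32768 ∧ ∃ h ∈ commutator fourRu, ∃ c ∈ Dat.uL, h * el i * h⁻¹ = el c

theorem fused_roots : ∀ i, bitB knownRoots i = true → Fused i := by
  have base : ∀ c ∈ Dat.uL, Fused c := fun c hc =>
    ⟨(u_spec hc).1, 1, one_mem _, c, hc, by simp⟩
  have hlen := wit_ok.2.2.1
  have key : ∀ L : List (ℕ × ℕ × List ℕ), ∀ i,
      bitB (List.rec (motive := fun _ => ℕ)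
        (Nat.lor (Nat.shiftLeft 1 (Dat.uL.getD 0 0)) (Nat.shiftLeft 1 (Dat.uL.getD 1 0)))
        (fun e _ ih => cond (rootB e) (Nat.lor ih (Nat.shiftLeft 1 e.1)) ih) L) i = true → Fused i := by
    intro L
    induction L with
    | nil =>
      intro i hi
      have hm : ∀ n, n < 2 → Dat.uL.getD n 0 ∈ Dat.uL := fun n hn => by
        rw [List.getD_eq_getElem _ _ (by omega)]
        exact List.getElem_mem _
      rcases bitB_or hi with h | rfl
      · have h' : bitB (Nat.lor 0 (Nat.shiftLeft 1 (Dat.uL.getD 0 0))) i = true := by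
          simpa [Nat.lor] using h
        rcases bitB_or h' with h'' | rfl
        · rw [bitB_iff, Nat.zero_testBit] at h''; cases h''
        · exact base _ (hm 0 (by norm_num))
      · exact base _ (hm 1 (by norm_num))
    | cons e L ih =>
      intro i hi
      rcases hb : rootB e
      · simp only [hb, cond_false] at hi; exact ih i hi
      · simp only [hb, cond_true] at hi
        rcases bitB_or hi with h | rfl
        · exact ih i h
        simp only [rootB, Bool.and_eq_true, Nat.blt_eq, memB_iff] at hb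
        obtain ⟨h1, h2, h3, h4⟩ := hb
        refine ⟨h1, evL e.2.2, evL_mem h3, e.2.1, h2, ?_⟩
        rw [mul_inv_eq_iff_eq_mul]
        refine key_injective ?_
        rw [key_evL, key_el h1, el, key_evT _ (wordT_lt _), ← mul_one (evL e.2.2), key_evL, key_one,
          Nat.eq_of_beq_eq_true h4]
  exact key Dat.rootL

theorem fused_fold : ∀ (L : List (ℕ × ℕ × ℕ)) (k : ℕ), (∀ i, bitB k i = true → Fused i) →
    ∀ i, bitB (foldE L k) i = true → Fused i
  | [], _, hk => hk
  | e :: L, k, hk => by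
    refine fused_fold L (learnE k e) fun i hi => ?_
    simp only [learnE] at hi
    rcases hb : (bitB k e.2.1 && (Nat.blt e.1 32768 && (Nat.blt e.2.1 32768 && (Nat.blt e.2.2 3 &&
        Nat.beq (stepT e.2.2 e.2.1) (mulI e.1 (gI' e.2.2))))))
    · rw [hb] at hi; exact hk i hi
    · rw [hb] at hi
      rcases bitB_or hi with h | rfl
      · exact hk i h
      simp only [Bool.and_eq_true, Nat.blt_eq] at hb
      obtain ⟨h0, h1, h2, h3, h4⟩ := hb
      obtain ⟨-, h, hh, c, hc, he⟩ := hk _ h0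
      refine ⟨h1, h * (tg e.2.2)⁻¹, mul_mem hh (inv_mem (tg_comm ⟨_, h3⟩)), c, hc, ?_⟩
      have hrel : tg e.2.2 * el e.2.1 = el e.1 * tg e.2.2 := by
        rw [← (el_step ⟨_, h3⟩ h2).2, Nat.eq_of_beq_eq_true h4, ← (el_mul (tg_eq ⟨_, h3⟩).1).2,
          (tg_eq ⟨_, h3⟩).2]
      rw [← he]
      have hp : el e.2.1 = (tg e.2.2)⁻¹ * el e.1 * tg e.2.2 := by
        rw [mul_assoc, ← hrel, ← mul_assoc, inv_mul_cancel, one_mul]
      rw [hp]
      group

theorem fused_of_sq {i : ℕ} (hi : i < 32768) (hsq : el i * el i = 1) (h0 : el i ≠ 1)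
    (hz : el i ≠ iS ^ 2) : Fused i := by
  have h := allB_spec_zero inv_ok (by norm_num : 32768 ≤ 2 ^ 15) hi
  have hs : Nat.beq (sqI i) 0 = true := by
    rw [el_inj (j := 0) (sq_spec hi).1 (by norm_num) (by rw [(sq_spec hi).2.1, hsq, el_zero])]
    exact Nat.beq_refl _
  simp only [invB, hs, Bool.not_true, Bool.false_or, Bool.or_eq_true] at h
  rcases h with h | h | h
  · exact absurd (by rw [Nat.eq_of_beq_eq_true h, el_zero]) h0
  · exact absurd (by rw [Nat.eq_of_beq_eq_true h, el_cz]) hz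
  · exact fused_fold _ _ fused_roots i h

/-- A central involution is the square of a triple commutator. -/
theorem u_witness {c : ℕ} (hc : c ∈ Dat.uL) :
    ∃ w ∈ ⁅⁅T0, T0⁆, T0⁆, w * w = el c := by
  rw [← wit_ok.2.1, List.mem_map] at hc
  obtain ⟨e, he, rfl⟩ := hc
  have h := wit_ok.1
  rw [List.all_eq_true] at h
  have := h e he
  simp only [witB, Bool.and_eq_true, Nat.blt_eq] at this
  obtain ⟨a1, a2, a3, b1, b2, b3, b4, b5, b6, b7⟩ := this
  obtain ⟨l1, m1, -, -⟩ := comI_el b1 b2 b3 b4 (Nat.eq_of_beq_eq_true a1) (Nat.eq_of_beq_eq_true a2)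
  obtain ⟨l2, m2, -, -⟩ := comI_el b3 b4 b1 b2 (Nat.eq_of_beq_eq_true a2) (Nat.eq_of_beq_eq_true a1)
  have hinv : mulI (comI e.2.1 e.2.2.1 e.2.2.2.1 e.2.2.2.2.1) (comI e.2.2.2.1 e.2.2.2.2.1 e.2.1 e.2.2.1) = 0 := by
    refine el_inj (el_mul l2).1 (by norm_num) ?_
    rw [← (el_mul l2).2, m1, m2, el_zero, ← commutatorElement_inv (el e.2.1) (el e.2.2.2.1), mul_inv_cancel]
  obtain ⟨l3, m3, -, -⟩ := comI_el l1 l2 b5 b6 hinv (Nat.eq_of_beq_eq_true a3)
  refine ⟨⁅⁅el e.2.1, el e.2.2.2.1⁆, el e.2.2.2.2.2.1⁆,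
    commutator_mem_commutator (commutator_mem_commutator (el_mem b1) (el_mem b3)) (el_mem b5), ?_⟩
  rw [← m1, ← m3, ← (sq_spec l3).2.1, Nat.eq_of_beq_eq_true b7]

/-- The normal subgroup of class-two quotient. -/
noncomputable def N0 : Subgroup fourRu :=
  closure {f | ∃ a ∈ Dat.nGen, f = el a}

theorem nGen_lt {a : ℕ} (ha : a ∈ Dat.nGen) : a < 32768 := by
  have h := nzero_ok.2.2
  rw [List.all_eq_true] at h
  simpa [Nat.blt_eq] using h a ha

theorem n_all : ∀ (L : List ℕ) (B i : ℕ),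
    List.rec (motive := fun _ => Bool) true (fun a _ ih => bitB B (mulI a i) && ih) L = true →
    ∀ a ∈ L, bitB B (mulI a i) = true
  | [], _, _, _, a, ha => by simp at ha
  | x :: L, B, i, h, a, ha => by
    have h' := (Bool.and_eq_true _ _).mp h
    rcases List.mem_cons.1 ha with rfl | ha
    · exact h'.1
    · exact n_all L B i h'.2 a ha

/-- The elements of the bit set. -/
def InB (f : fourRu) : Prop := ∃ i < 32768, bitB Dat.nBits i = true ∧ f = el i

theorem N0_inB {f : fourRu} (hf : f ∈ N0) : InB f := by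
  let M : Subgroup fourRu :=
    { carrier := {f | ∀ g, InB g → InB (f * g)}
      one_mem' := fun g hg => by simpa using hg
      mul_mem' := fun {a b} ha hb g hg => by rw [mul_assoc]; exact ha _ (hb _ hg)
      inv_mem' := fun {a} ha g hg => by
        have hp : ∀ n : ℕ, InB (a ^ n * g) := fun n => by
          induction n with
          | zero => simpa using hg
          | succ n ih => rw [pow_succ', mul_assoc]; exact ha _ ih
        have e : a⁻¹ = a ^ (orderOf a - 1) := by
          refine inv_eq_of_mul_eq_one_right ?_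
          rw [← pow_succ', Nat.sub_add_cancel (orderOf_pos a), pow_orderOf_eq_one]
        rw [e]
        exact hp _ }
  have hle : N0 ≤ M := by
    refine (closure_le _).2 ?_
    rintro _ ⟨a, ha, rfl⟩ g ⟨i, hi, hb, rfl⟩
    have h := allB_spec_zero n_ok (by norm_num : 32768 ≤ 2 ^ 15) hi
    simp only [nB, hb, Bool.not_true, Bool.false_or, Bool.and_eq_true] at h
    exact ⟨mulI a i, (el_mul hi).1, n_all _ _ _ h.2 a ha, (el_mul hi).2⟩
  have := hle hf 1 ⟨0, by norm_num, nzero_ok.1, el_zero.symm⟩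
  rwa [mul_one] at this

theorem N0_sq_ne {f : fourRu} (hf : f ∈ N0) : f * f ≠ iS ^ 2 := by
  obtain ⟨i, hi, hb, rfl⟩ := N0_inB hf
  intro e
  have h := allB_spec_zero n_ok (by norm_num : 32768 ≤ 2 ^ 15) hi
  simp only [nB, hb, Bool.not_true, Bool.false_or, Bool.and_eq_true, Bool.not_eq_true'] at h
  rw [el_inj (sq_spec hi).1 base_ok.2.2 (by rw [(sq_spec hi).2.1, e, el_cz]),
    show Nat.beq Dat.cz Dat.cz = true from Nat.beq_refl _] at h
  exact Bool.noConfusion h.1

theorem gen_getD (n : ℕ) : el (Dat.nGen.getD n 0) ∈ N0 := by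
  rcases lt_or_ge n Dat.nGen.length with h | h
  · rw [List.getD_eq_getElem _ _ h]
    exact subset_closure ⟨_, List.getElem_mem h, rfl⟩
  · rw [List.getD_eq_default _ _ h, el_zero]
    exact one_mem _

theorem runN_spec : ∀ (v : List ℕ) {i : ℕ}, i < 32768 →
    runN v i < 32768 ∧ ∃ m ∈ N0, el (runN v i) = m * el i
  | [], i, hi => ⟨hi, 1, one_mem _, (one_mul _).symm⟩
  | n :: v, i, hi => by
    obtain ⟨h1, m, hm, e⟩ := runN_spec v (el_mul (a := Dat.nGen.getD n 0) hi).1
    refine ⟨h1, m * el (Dat.nGen.getD n 0), mul_mem hm (gen_getD n), ?_⟩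
    show el (runN v (mulI (Dat.nGen.getD n 0) i)) = _
    rw [e, ← (el_mul hi).2, mul_assoc]

theorem N0_le : N0 ≤ T0 := (closure_le _).2 fun f ⟨_, ha, e⟩ => e ▸ el_mem (nGen_lt ha)

theorem tg_normalizes (j : Fin 3) {f : fourRu} (hf : f ∈ N0) : tg j.val * f * (tg j.val)⁻¹ ∈ N0 := by
  suffices N0 ≤ N0.comap (MulAut.conj (tg j.val)).toMonoidHom from this hf
  refine (closure_le _).2 ?_
  rintro _ ⟨a, ha, rfl⟩
  show tg j.val * el a * (tg j.val)⁻¹ ∈ N0
  obtain ⟨n, hn, rfl⟩ := List.getElem_of_mem ha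
  have h := norm_ok ⟨n, nzero_ok.2.1 ▸ hn⟩ j
  simp only [normB, List.getD_eq_getElem _ _ hn] at h
  obtain ⟨-, m, hm, e⟩ := runN_spec ((Dat.nNorm.getD n []).getD j.val []) (tg_eq j).1
  rw [← Nat.eq_of_beq_eq_true h, (el_step j (nGen_lt ha)).2, (tg_eq j).2] at e
  rw [e, mul_inv_cancel_right]
  exact hm

theorem T0_normalizes {f t : fourRu} (ht : t ∈ T0) (hf : f ∈ N0) : t * f * t⁻¹ ∈ N0 := by
  obtain ⟨i, hi, rfl⟩ := ht
  have key : ∀ w : List ℕ, (∀ a ∈ w, a < 3) → ∀ f ∈ N0, evT w * f * (evT w)⁻¹ ∈ N0 := by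
    intro w
    induction w with
    | nil => intro _ f hf; simpa [evT] using hf
    | cons j w ih =>
      intro hw f hf
      have := ih (fun a ha => hw a (List.mem_cons_of_mem _ ha)) _
        (tg_normalizes ⟨j, hw j List.mem_cons_self⟩ hf)
      rw [evT, mul_inv_rev]
      simpa [mul_assoc] using this
  exact key _ (wordT_lt i) f hf

theorem comm_comm_le : ⁅⁅T0, T0⁆, T0⁆ ≤ N0 := by
  haveI hN : (N0.subgroupOf T0).Normal := ⟨fun n hn g => T0_normalizes g.2 hn⟩
  let π := QuotientGroup.mk' (N0.subgroupOf T0)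
  let g : Fin 3 → T0 := fun j => ⟨tg j.val, tg_mem j⟩
  have ind : ∀ P : T0 → Prop, P 1 → (∀ t j, P t → P (t * g j)) → ∀ t, P t := by
    intro P h1 hs
    rintro ⟨f, i, hi, rfl⟩
    have key : ∀ w : List ℕ, ∀ hw : ∀ a ∈ w, a < 3, ∀ t : T0, P t → P (t * ⟨evT w.reverse,
        evT_mem fun a ha => hw a (List.mem_reverse.1 ha)⟩) := by
      intro w
      induction w with
      | nil =>
        intro hw t ht
        convert ht using 1
        exact Subtype.ext (by simp [evT])
      | cons j w ih =>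
        intro hw t ht
        have := ih (fun a ha => hw a (List.mem_cons_of_mem _ ha)) _ (hs t ⟨j, hw j List.mem_cons_self⟩ ht)
        convert this using 1
        refine Subtype.ext ?_
        simp [g, evT, evT_append, mul_assoc]
    have := key (wordT i).reverse (fun a ha => wordT_lt i a (List.mem_reverse.1 ha)) 1 h1
    simpa [el, List.reverse_reverse] using this
  have tri : ∀ a b c : Fin 3, ⁅⁅π (g a), π (g b)⁆, π (g c)⁆ = 1 := by
    intro a b c
    rw [← map_commutatorElement, ← map_commutatorElement]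
    refine (QuotientGroup.eq_one_iff _).2 ?_
    show ⁅⁅tg a.val, tg b.val⁆, tg c.val⁆ ∈ N0
    have h7 : ∀ j : Fin 3, evT (invW j.val) = (tg j.val)⁻¹ := by
      intro j
      have e := Nat.eq_of_beq_eq_true (gen_eight_ok j)
      have hw : ∀ x ∈ repW [j.val] 8, x < 3 := fun x hx => by
        rw [mem_repW _ _ x hx]; exact j.isLt
      have h8 : tg j.val ^ 8 = 1 := by
        have := (evT_eq hw).2
        rw [e, el_zero, evT_repW] at this
        simpa [evT] using this.symm
      rw [invW, evT_repW]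
      refine (inv_eq_of_mul_eq_one_right ?_).symm
      simpa [evT, ← pow_succ'] using h8
    have hc : ∀ a b : Fin 3, evT (commW a.val b.val) = ⁅tg a.val, tg b.val⁆ := by
      intro a b
      show evT (invW b.val ++ (invW a.val ++ [b.val, a.val])) = _
      rw [evT_append, evT_append, h7, h7]
      simp [evT, commutatorElement_def, mul_assoc]
    have hw : evT (triComW a.val b.val c.val) = ⁅⁅tg a.val, tg b.val⁆, tg c.val⁆ := by
      show evT (invW c.val ++ (commW b.val a.val ++ (c.val :: commW a.val b.val))) = _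
      rw [evT_append, evT_append, evT, hc, hc, h7]
      simp [commutatorElement_def, mul_assoc]
    have hlt : ∀ x ∈ triComW a.val b.val c.val, x < 3 := by
      intro x hx
      simp only [triComW, commW, List.append_eq, List.mem_append, List.mem_cons, List.not_mem_nil,
        or_false] at hx
      have hi : ∀ j : Fin 3, x ∈ invW j.val → x < 3 := fun j h => by
        rw [mem_repW _ _ x h]; exact j.isLt
      have hl : ∀ j : Fin 3, x = j.val → x < 3 := fun j h => h ▸ j.isLt
      rcases hx with h | (h | h | h | h) | h | h | h | h | h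
      all_goals first
        | exact hl a h | exact hl b h | exact hl c h
        | exact hi a h | exact hi b h | exact hi c h
    obtain ⟨h1, h2⟩ := evT_eq hlt
    obtain ⟨-, m, hm, e⟩ := runN_spec (Dat.triW.getD
      (Nat.add (Nat.mul 9 a.val) (Nat.add (Nat.mul 3 b.val) c.val)) []) (i := 0) (by norm_num)
    rw [← Nat.eq_of_beq_eq_true (tri_ok a b c), h2, hw, el_zero, mul_one] at e
    exact e ▸ hm
  have gen_central : ∀ q, (∀ j, Commute q (π (g j))) → q ∈ center (T0 ⧸ N0.subgroupOf T0) := by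
    intro q hq
    refine Subgroup.mem_center_iff.2 fun r => ?_
    obtain ⟨t, rfl⟩ := QuotientGroup.mk'_surjective (N0.subgroupOf T0) r
    have := ind (fun t => Commute q (π t)) (by simp) (fun t j h => by rw [map_mul]; exact h.mul_right (hq j)) t
    exact this.eq.symm
  have base : ∀ a b, ⁅π (g a), π (g b)⁆ ∈ center (T0 ⧸ N0.subgroupOf T0) := fun a b =>
    gen_central _ fun c => commutatorElement_eq_one_iff_commute.1 (tri a b c)
  have step1 : ∀ t b, ⁅π t, π (g b)⁆ ∈ center (T0 ⧸ N0.subgroupOf T0) := by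
    intro t b
    refine ind (fun t => ⁅π t, π (g b)⁆ ∈ center (T0 ⧸ N0.subgroupOf T0)) ?_ (fun t a h => ?_) t
    · simp [one_mem]
    · rw [map_mul]
      have e : ⁅π t * π (g a), π (g b)⁆ = π t * ⁅π (g a), π (g b)⁆ * (π t)⁻¹ * ⁅π t, π (g b)⁆ := by
        simp [commutatorElement_def, mul_assoc]
      rw [e]
      exact mul_mem ((inferInstance : (center (T0 ⧸ N0.subgroupOf T0)).Normal).conj_mem _ (base a b) _) h
  have step2 : ∀ t s, ⁅π t, π s⁆ ∈ center (T0 ⧸ N0.subgroupOf T0) := by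
    intro t s
    refine ind (fun s => ⁅π t, π s⁆ ∈ center (T0 ⧸ N0.subgroupOf T0)) ?_ (fun s b h => ?_) s
    · simp [one_mem]
    · rw [map_mul]
      have e : ⁅π t, π s * π (g b)⁆ = ⁅π t, π s⁆ * (π s * ⁅π t, π (g b)⁆ * (π s)⁻¹) := by
        simp [commutatorElement_def, mul_assoc]
      rw [e]
      exact mul_mem h ((inferInstance : (center (T0 ⧸ N0.subgroupOf T0)).Normal).conj_mem _ (step1 t b) _)
  have hK : ⁅T0, T0⁆ ≤ ((center (T0 ⧸ N0.subgroupOf T0)).comap π).map T0.subtype := by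
    rw [commutator_le]
    intro a ha b hb
    exact ⟨⁅(⟨a, ha⟩ : T0), ⟨b, hb⟩⁆, by
      show π _ ∈ center _
      rw [map_commutatorElement]
      exact step2 _ _, by simp [commutatorElement_def]⟩
  rw [commutator_le]
  intro x hx t ht
  obtain ⟨x', hx', rfl⟩ := hK hx
  have : π ⁅x', ⟨t, ht⟩⁆ = 1 := by
    rw [map_commutatorElement, commutatorElement_eq_one_iff_commute]
    exact ((Subgroup.mem_center_iff.1 hx') _).symm
  exact mem_subgroupOf.1 ((QuotientGroup.eq_one_iff (⁅x', ⟨t, ht⟩⁆ : T0)).1 this)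

theorem T0_le : T0 ≤ commutator fourRu := fun _ ⟨i, _, e⟩ => e ▸ el_comm i

/-- The Sylow subgroup of `2.Ru`. -/
noncomputable def TS : Sylow 2 ↥(commutator fourRu) :=
  haveI : Fact (Nat.Prime 2) := ⟨Nat.prime_two⟩
  Sylow.ofCard (T0.subgroupOf (commutator fourRu)) (by
    rw [Nat.card_congr (subgroupOfEquivOfLe T0_le).toEquiv, card_T0, card_commutator,
      show 2 * 145926144000 = 2 ^ 15 * 8906625 by norm_num,
      Nat.factorization_mul (by norm_num) (by norm_num), Nat.prime_two.factorization_pow]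
    simp [Nat.factorization_eq_zero_of_not_dvd (show ¬ 2 ∣ 8906625 by norm_num)])

theorem mem_TS {x : ↥(commutator fourRu)} : x ∈ (TS : Subgroup ↥(commutator fourRu)) ↔ (x : fourRu) ∈ T0 :=
  mem_subgroupOf

theorem exists_conj_TS {x : ↥(commutator fourRu)} (hx : IsPGroup 2 (zpowers x)) :
    ∃ h : ↥(commutator fourRu), ∃ i, i < 32768 ∧ ((h * x * h⁻¹ : ↥(commutator fourRu)) : fourRu) = el i := by
  haveI : Fact (Nat.Prime 2) := ⟨Nat.prime_two⟩
  obtain ⟨Q, hQ⟩ := hx.exists_le_sylow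
  obtain ⟨g, hg⟩ := MulAction.exists_smul_eq ↥(commutator fourRu) Q TS
  have hm : g * x * g⁻¹ ∈ ((g • Q : Sylow 2 ↥(commutator fourRu)) : Subgroup ↥(commutator fourRu)) :=
    ⟨x, hQ (mem_zpowers x), rfl⟩
  rw [hg] at hm
  obtain ⟨i, hi, e⟩ := mem_TS.1 hm
  exact ⟨g, i, hi, e⟩

/-- All facts needed for the standard form theorem. -/
theorem facts : ∃ z : ↥(commutator fourRu), orderOf z = 2 ∧ center ↥(commutator fourRu) = zpowers z ∧
    (∀ y : ↥(commutator fourRu), y ^ 4 ≠ z) ∧
    (∀ x ∈ (TS : Subgroup ↥(commutator fourRu)),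
      (∀ t ∈ (TS : Subgroup ↥(commutator fourRu)), Commute t x) → x ^ 2 = 1) ∧
    (∀ x : ↥(commutator fourRu), x ^ 2 = 1 → x ≠ 1 → x ≠ z →
      ∃ h : ↥(commutator fourRu), (∀ t ∈ (TS : Subgroup ↥(commutator fourRu)), Commute t (h * x * h⁻¹)) ∧
        ∃ w ∈ ⁅⁅(TS : Subgroup ↥(commutator fourRu)), (TS : Subgroup ↥(commutator fourRu))⁆,
          (TS : Subgroup ↥(commutator fourRu))⁆, w ^ 2 = h * x * h⁻¹) ∧
    (∀ w ∈ ⁅⁅(TS : Subgroup ↥(commutator fourRu)), (TS : Subgroup ↥(commutator fourRu))⁆,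
      (TS : Subgroup ↥(commutator fourRu))⁆, w ^ 2 ≠ z) := by
  haveI : Fact (Nat.Prime 2) := ⟨Nat.prime_two⟩
  have hmap : (TS : Subgroup ↥(commutator fourRu)).map (commutator fourRu).subtype = T0 :=
    map_subgroupOf_eq_of_le T0_le
  have hγ : (⁅⁅(TS : Subgroup ↥(commutator fourRu)), (TS : Subgroup ↥(commutator fourRu))⁆,
      (TS : Subgroup ↥(commutator fourRu))⁆).map (commutator fourRu).subtype = ⁅⁅T0, T0⁆, T0⁆ := by
    rw [map_commutator, map_commutator, hmap]
  let z : ↥(commutator fourRu) := ⟨iS ^ 2, iS_two_mem⟩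
  have hzz : z ^ 2 = 1 := by
    refine Subtype.ext ?_
    show (iS ^ 2) ^ 2 = 1
    refine key_injective ?_
    rw [← pow_mul]
    have := key_mul (s := fun k => rotN k 4) (f := iS ^ 4) (fun k => congrArg Fin.val (iS_pow_smul 4 k)) 1
    rw [mul_one, key_one] at this
    show key (iS ^ 4) = _
    rw [this, key_one]
    decide +kernel
  have hz1 : z ≠ 1 := fun e => by
    have h := congrArg Subtype.val e
    have h2 := congrArg key (show (iS ^ 2 : fourRu) = 1 from h)
    rw [key_iS_two, key_one_kV] at h2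
    have h3 := kV_inj base_ok.2.2 (by norm_num) h2
    exact absurd h3 (by decide +kernel)
  have hzo : orderOf z = 2 := orderOf_eq_prime hzz hz1
  have hzc : z ∈ center ↥(commutator fourRu) := mem_center_iff.2 fun g => Subtype.ext (by
    show (g : fourRu) * iS ^ 2 = iS ^ 2 * g
    exact ((show Commute iS (g : fourRu) from iS_comm (g : fourRu)).pow_left 2).eq.symm)
  refine ⟨z, hzo, (eq_of_le_of_card_ge (zpowers_le.2 hzc) (by
    rw [center_commutator, Nat.card_zpowers, hzo])).symm, ?_, ?_, ?_, ?_⟩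
  · intro y hy
    have h8 : y ^ 8 = 1 := by rw [show 8 = 4 * 2 by norm_num, pow_mul, hy, hzz]
    have hp : IsPGroup 2 (zpowers y) := IsPGroup.of_card (n := Nat.log 2 (Nat.card (zpowers y))) (by
      obtain ⟨k, -, hk⟩ := (Nat.dvd_prime_pow Nat.prime_two).1
        (show Nat.card (zpowers y) ∣ 2 ^ 3 by rw [Nat.card_zpowers]; exact orderOf_dvd_of_pow_eq_one h8)
      rw [hk, Nat.log_pow (by norm_num)])
    obtain ⟨h, i, hi, e⟩ := exists_conj_TS hp
    refine (sq_spec hi).2.2 (el_inj (sq_spec (sq_spec hi).1).1 base_ok.2.2 ?_)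
    rw [(sq_spec (sq_spec hi).1).2.1, (sq_spec hi).2.1, el_cz, ← e]
    have hc : (h * y * h⁻¹) ^ 4 = z := by
      rw [conj_pow, hy, (mem_center_iff.1 hzc h), mul_inv_cancel_right]
    have := congrArg Subtype.val hc
    simpa [pow_succ, mul_assoc, z] using this
  · intro x hx hc
    obtain ⟨i, hi, e⟩ := mem_TS.1 hx
    refine Subtype.ext ?_
    rw [SubgroupClass.coe_pow, pow_two, OneMemClass.coe_one, e]
    refine central_sq hi fun j => ?_
    have := congrArg Subtype.val (hc ⟨tg j.val, T0_le (tg_mem j)⟩ (mem_TS.2 (tg_mem j))).eq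
    simpa [e, Commute, SemiconjBy] using this
  · intro x hx hx1 hxz
    have hp : IsPGroup 2 (zpowers x) := IsPGroup.of_card (n := 1) (by
      rw [Nat.card_zpowers, pow_one]; exact orderOf_eq_prime hx hx1)
    obtain ⟨h0, i, hi, e⟩ := exists_conj_TS hp
    have hne1 : h0 * x * h0⁻¹ ≠ 1 := fun h => hx1 (by simpa using conj_eq_one_iff.1 h)
    have hnez : h0 * x * h0⁻¹ ≠ z := fun h => hxz (by
      rw [← mul_left_inj h0⁻¹, ← mul_right_inj h0, ← mul_assoc, h, ← mul_assoc,
        mem_center_iff.1 hzc h0, mul_inv_cancel_right])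
    have hsq : el i * el i = 1 := by
      rw [← e]
      have : (h0 * x * h0⁻¹) ^ 2 = 1 := by rw [conj_pow, hx, mul_one, mul_inv_cancel]
      simpa [pow_two] using congrArg Subtype.val this
    obtain ⟨-, k, hk, c, hc, hkc⟩ := fused_of_sq hi hsq
      (fun h => hne1 (Subtype.ext (e.trans h))) (fun h => hnez (Subtype.ext (e.trans h)))
    obtain ⟨w, hw, hw2⟩ := u_witness hc
    obtain ⟨hcu, hcc⟩ := u_spec hc
    let k' : ↥(commutator fourRu) := ⟨k, hk⟩
    have he : ((k' * h0 * x * (k' * h0)⁻¹ : ↥(commutator fourRu)) : fourRu) = el c := by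
      rw [← hkc, ← e]
      simp [k', mul_assoc]
    refine ⟨k' * h0, fun t ht => ?_, ?_⟩
    · obtain ⟨n, hn, et⟩ := mem_TS.1 ht
      refine Subtype.ext ?_
      show (t : fourRu) * _ = _ * (t : fourRu)
      rw [he, et]
      exact (evT_commute hcc (wordT_lt n)).eq
    · rw [← hγ] at hw
      obtain ⟨w', hw', rfl⟩ := hw
      refine ⟨w', hw', Subtype.ext ?_⟩
      rw [he, ← hw2, SubgroupClass.coe_pow, pow_two]
      rfl
  · intro w hw e
    refine N0_sq_ne (comm_comm_le (hγ ▸ mem_map_of_mem _ hw)) ?_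
    have := congrArg Subtype.val e
    rw [SubgroupClass.coe_pow, pow_two] at this
    exact this

end Cfsg.Agent.H40.Ru2
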