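import Cfsg.Agent.RuModel.Levels
import Cfsg.Agent.H40.Ru2.TabA
import Cfsg.Agent.H40.Ru2.TabB
import Cfsg.Agent.H40.Ru2.TabC
import Cfsg.Agent.H40.Ru2.TabD

/-!
# Kernel functions for a Sylow 2-subgroup of the double cover of the Rudvalis group (owner: helper40)

Elements of the Sylow subgroup are numbered below `32768`; `kT` stores the images of the five base points.
-/

set_option autoImplicit false

namespace Cfsg.Agent.H40.Ru2

open Cfsg.Agent.CosetCert Cfsg.Agent.RuModel

/-- One of the seven generators or the scalar `i`, on points. -/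
noncomputable def stepL (l k : ℕ) : ℕ := cond (Nat.blt l 7) (imP l k) (rotN k 1)

/-- The table of a generator of the Sylow subgroup. -/
noncomputable def qTree (j : ℕ) : PTree :=
  cond (Nat.beq j 0) Dat.qT0 (cond (Nat.beq j 1) Dat.qT1 Dat.qT2)

/-- A generator of the Sylow subgroup, on points. -/
noncomputable def stepQ (j k : ℕ) : ℕ := rotN ((qTree j).get 16 (Nat.div k 4)) (Nat.mod k 4)

/-- The table of left multiplication. -/
noncomputable def ltTree (j : ℕ) : PTree :=
  cond (Nat.beq j 0) Dat.ltT0 (cond (Nat.beq j 1) Dat.ltT1 Dat.ltT2)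

/-- Left multiplication by a generator, on numbers. -/
noncomputable def stepT (j i : ℕ) : ℕ := (ltTree j).get 16 i

/-- Five points in one number. -/
noncomputable def pack5 (a b c d e : ℕ) : ℕ :=
  Nat.add a (Nat.mul 65536 (Nat.add b (Nat.mul 65536 (Nat.add c (Nat.mul 65536 (Nat.add d (Nat.mul 65536 e)))))))

/-- One of the five points. -/
noncomputable def part5 (K n : ℕ) : ℕ := Nat.mod (Nat.shiftRight K (Nat.mul 16 n)) 65536

/-- Apply a map to five points. -/
noncomputable def kMap (s : ℕ → ℕ) (K : ℕ) : ℕ :=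
  pack5 (s (part5 K 0)) (s (part5 K 1)) (s (part5 K 2)) (s (part5 K 3)) (s (part5 K 4))

/-- The five base points. -/
noncomputable def kBase : ℕ :=
  pack5 RuModel.Dat.base1 RuModel.Dat.base2 RuModel.Dat.base3 RuModel.Dat.base4 RuModel.Dat.base5

/-- The images of the base points under a numbered element. -/
noncomputable def kV (i : ℕ) : ℕ := Dat.kT.get 80 i

/-- Decoding of a word. -/
noncomputable def wList (c : ℕ) : List ℕ :=
  Nat.rec (motive := fun _ => ℕ → List ℕ) (fun _ => [])
    (fun _ ih x => cond (Nat.beq x 0) [] (List.cons (Nat.sub (Nat.mod x 4) 1) (ih (Nat.div x 4)))) 16 c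

/-- The word of a numbered element. -/
noncomputable def wordT (i : ℕ) : List ℕ := wList (Dat.wT.get 32 i)

/-- The product of two numbered elements. -/
noncomputable def mulI (a b : ℕ) : ℕ := runW stepT (wordT a) b

/-- The squares. -/
noncomputable def sqI (i : ℕ) : ℕ := Dat.sqT.get 16 i

/-- The number of a generator. -/
noncomputable def gI' (j : ℕ) : ℕ := stepT j 0

/-- A bit of a number. -/
noncomputable def bitB (B i : ℕ) : Bool := Nat.beq (Nat.land (Nat.shiftRight B i) 1) 1

/-- One point of a generator table. -/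
noncomputable def qB (j m : ℕ) : Bool :=
  Nat.beq ((qTree j).get 16 m) (runW stepL (Dat.genW.getD j []) (Nat.mul 4 m))

/-- One entry of a multiplication table. -/
noncomputable def ltB (j i : ℕ) : Bool :=
  Nat.blt (stepT j i) 32768 && Nat.beq (kV (stepT j i)) (kMap (stepQ j) (kV i))

/-- One word. -/
noncomputable def wB (i : ℕ) : Bool := Nat.beq (runW stepT (wordT i) 0) i

/-- One step of the sorted list. -/
noncomputable def srtB (i : ℕ) : Bool :=
  Nat.blt (Dat.posT.get 16 i) 32768 && (Nat.beq (Dat.srtT.get 16 (Dat.posT.get 16 i)) i &&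
    (Nat.ble 32767 (Dat.posT.get 16 i) ||
      Nat.blt (kV i) (kV (Dat.srtT.get 16 (Nat.add (Dat.posT.get 16 i) 1)))))

/-- One square, and no square root of order eight of the central involution. -/
noncomputable def sqB (i : ℕ) : Bool := Nat.beq (sqI i) (mulI i i)

/-- No element has the central involution as fourth power. -/
noncomputable def fourB (i : ℕ) : Bool := !(Nat.beq (sqI (sqI i)) Dat.cz)

/-- Membership in a short list. -/
noncomputable def memB (L : List ℕ) (i : ℕ) : Bool :=
  List.rec (motive := fun _ => Bool) false (fun a _ ih => Nat.beq a i || ih) L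

/-- Central elements are listed. -/
noncomputable def cenB (i : ℕ) : Bool :=
  !(Nat.beq (stepT 0 i) (mulI i (gI' 0)) && (Nat.beq (stepT 1 i) (mulI i (gI' 1)) &&
      Nat.beq (stepT 2 i) (mulI i (gI' 2)))) || (memB Dat.cenL i && Nat.beq (sqI i) 0)

/-- The parity vector of a word. -/
noncomputable def parW (w : List ℕ) : ℕ :=
  List.rec (motive := fun _ => ℕ) 0
    (fun l _ ih => Nat.xor ih (Nat.shiftLeft 1 (cond (Nat.blt l 7) l 7))) w

/-- A repeated word. -/
noncomputable def repW (w : List ℕ) (n : ℕ) : List ℕ :=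
  Nat.rec (motive := fun _ => List ℕ) [] (fun _ ih => List.append w ih) n

/-- A word of odd order. -/
noncomputable def oddB (e : List ℕ × ℕ) : Bool :=
  Nat.beq (Nat.mod e.2 2) 1 && Nat.beq (kMap (runW stepL (repW e.1 e.2)) kBase) kBase

/-- The parity vectors spanned by a list of words, as a bit set. -/
noncomputable def spanB (L : List (List ℕ × ℕ)) : ℕ :=
  List.rec (motive := fun _ => ℕ) 1
    (fun e _ ih => Nat.rec (motive := fun _ => ℕ) ih
      (fun v acc => cond (bitB ih v) (Nat.lor acc (Nat.shiftLeft 1 (Nat.xor v (parW e.1)))) acc) 256) L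

/-- A word lies in the derived subgroup. -/
noncomputable def evenB (w : List ℕ) : Bool := bitB (spanB Dat.oddW) (parW w)

/-- A listed element conjugate to a central involution. -/
noncomputable def rootB (e : ℕ × ℕ × List ℕ) : Bool :=
  Nat.blt e.1 32768 && (memB Dat.uL e.2.1 && (evenB e.2.2 &&
    Nat.beq (kMap (runW stepL e.2.2) (kV e.1))
      (kMap (runW stepQ (wordT e.2.1)) (kMap (runW stepL e.2.2) kBase))))

/-- The bits of the listed elements. -/
noncomputable def knownRoots : ℕ :=
  List.rec (motive := fun _ => ℕ) (Nat.lor (Nat.shiftLeft 1 (Dat.uL.getD 0 0)) (Nat.shiftLeft 1 (Dat.uL.getD 1 0)))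
    (fun e _ ih => cond (rootB e) (Nat.lor ih (Nat.shiftLeft 1 e.1)) ih) Dat.rootL

/-- One conjugation edge. -/
noncomputable def learnE (known : ℕ) (e : ℕ × ℕ × ℕ) : ℕ :=
  cond (bitB known e.2.1 && (Nat.blt e.1 32768 && (Nat.blt e.2.1 32768 && (Nat.blt e.2.2 3 &&
      Nat.beq (stepT e.2.2 e.2.1) (mulI e.1 (gI' e.2.2))))))
    (Nat.lor known (Nat.shiftLeft 1 e.1)) known

/-- Fold over the edges, first edge first. -/
noncomputable def foldE (L : List (ℕ × ℕ × ℕ)) : ℕ → ℕ :=
  List.rec (motive := fun _ => ℕ → ℕ) (fun k => k) (fun e _ ih k => ih (learnE k e)) L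

/-- Every element of order two is known. -/
noncomputable def invB (known i : ℕ) : Bool :=
  !(Nat.beq (sqI i) 0) || (Nat.beq i 0 || (Nat.beq i Dat.cz || bitB known i))

/-- The set `N` is closed. -/
noncomputable def nB (i : ℕ) : Bool :=
  !(bitB Dat.nBits i) || (!(Nat.beq (sqI i) Dat.cz) &&
    List.rec (motive := fun _ => Bool) true (fun a _ ih => bitB Dat.nBits (mulI a i) && ih) Dat.nGen)

/-- A product of generators of `N`. -/
noncomputable def runN (v : List ℕ) (i : ℕ) : ℕ := runW (fun n x => mulI (Dat.nGen.getD n 0) x) v i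

/-- The inverse word of a generator. -/
noncomputable def invW (j : ℕ) : List ℕ := repW [j] 7

/-- The word of a commutator of two generators. -/
noncomputable def commW (a b : ℕ) : List ℕ := List.append (invW b) (List.append (invW a) [b, a])

/-- The word of a triple commutator of generators. -/
noncomputable def triComW (a b c : ℕ) : List ℕ :=
  List.append (invW c) (List.append (commW b a) (List.cons c (commW a b)))

/-- Normality of `N` for one generator of it and one of the Sylow subgroup. -/
noncomputable def normB (n j : ℕ) : Bool :=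
  Nat.beq (stepT j (Dat.nGen.getD n 0)) (runN ((Dat.nNorm.getD n []).getD j []) (gI' j))

/-- A triple commutator lies in `N`. -/
noncomputable def triB (a b c : ℕ) : Bool :=
  Nat.beq (runW stepT (triComW a b c) 0)
    (runN (Dat.triW.getD (Nat.add (Nat.mul 9 a) (Nat.add (Nat.mul 3 b) c)) []) 0)

/-- The commutator of two numbered elements. -/
noncomputable def comI (a ai b bi : ℕ) : ℕ := mulI (mulI a b) (mulI ai bi)

/-- A central involution as square of a triple commutator. -/
noncomputable def witB (e : ℕ × ℕ × ℕ × ℕ × ℕ × ℕ × ℕ) : Bool :=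
  let a := e.2.1; let ai := e.2.2.1; let b := e.2.2.2.1; let bi := e.2.2.2.2.1
  let c := e.2.2.2.2.2.1; let ci := e.2.2.2.2.2.2
  Nat.beq (mulI a ai) 0 && (Nat.beq (mulI b bi) 0 && (Nat.beq (mulI c ci) 0 &&
    (Nat.blt a 32768 && (Nat.blt ai 32768 && (Nat.blt b 32768 && (Nat.blt bi 32768 &&
      (Nat.blt c 32768 && (Nat.blt ci 32768 &&
        Nat.beq (sqI (comI (comI a ai b bi) (comI b bi a ai) c ci)) e.1))))))))

end Cfsg.Agent.H40.Ru2
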