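import Cfsg.Agent.H40.Ru2.Elem
import Mathlib.GroupTheory.Abelianization.Defs

/-!
# Which words lie in the derived subgroup of `4.Ru` (owner: helper40)
-/

set_option autoImplicit false
set_option maxRecDepth 4000

namespace Cfsg.Agent.H40.Ru2

open Cfsg.Agent.CosetCert Cfsg.Agent.RuModel Cfsg.Spor
open scoped commutatorElement

theorem key_iS_two : key (iS ^ 2) = kV Dat.cz := by
  rw [Nat.eq_of_beq_eq_true base_ok.2.1, ← key_one]
  have h : ∀ k : Fin 16240, ((iS ^ 2) • k).val = rotN k.val 2 := fun k =>
    congrArg Fin.val (iS_pow_smul 2 k)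
  have := key_mul (s := fun k => rotN k 2) h 1
  rwa [mul_one] at this

theorem el_cz : el Dat.cz = iS ^ 2 := key_injective ((key_el base_ok.2.2).trans key_iS_two.symm)

theorem comI_el {a ai b bi : ℕ} (ha : a < 32768) (hai : ai < 32768) (hb : b < 32768) (hbi : bi < 32768)
    (h1 : mulI a ai = 0) (h2 : mulI b bi = 0) :
    comI a ai b bi < 32768 ∧ el (comI a ai b bi) = ⁅el a, el b⁆ ∧ el ai = (el a)⁻¹ ∧ el bi = (el b)⁻¹ := by
  have e1 : el ai = (el a)⁻¹ := by
    refine eq_inv_of_mul_eq_one_right ?_
    rw [(el_mul hai).2, h1, el_zero]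
  have e2 : el bi = (el b)⁻¹ := by
    refine eq_inv_of_mul_eq_one_right ?_
    rw [(el_mul hbi).2, h2, el_zero]
  obtain ⟨l2, m2⟩ := el_mul (a := ai) hbi
  obtain ⟨l3, m3⟩ := el_mul (a := mulI a b) l2
  refine ⟨l3, ?_, e1, e2⟩
  show el (mulI (mulI a b) (mulI ai bi)) = _
  rw [← m3, ← m2, ← (el_mul hb).2, e1, e2, commutatorElement_def]
  group

theorem iS_two_mem : iS ^ 2 ∈ commutator fourRu := by
  have h := zwit_ok
  simp only [Bool.and_eq_true, Nat.blt_eq] at h
  obtain ⟨a, b, c, d, e, f, g⟩ := h
  obtain ⟨-, hc, -, -⟩ := comI_el a b c d (Nat.eq_of_beq_eq_true e) (Nat.eq_of_beq_eq_true f)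
  rw [← el_cz, ← Nat.eq_of_beq_eq_true g, hc]
  exact Subgroup.commutator_mem_commutator (Subgroup.mem_top _) (Subgroup.mem_top _)

/-- The image in the abelianization. -/
noncomputable def ab : fourRu →* Abelianization fourRu := Abelianization.of

theorem ab_eq_one {f : fourRu} : ab f = 1 ↔ f ∈ commutator fourRu := QuotientGroup.eq_one_iff f

theorem ab_letL_sq (l : ℕ) : ab (letL l) * ab (letL l) = 1 := by
  have hl : ∀ l : Fin 8, letL l.val * letL l.val = 1 ∨ letL l.val * letL l.val = iS ^ 2 := by
    intro l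
    have h := letter_sq_ok l
    simp only [Bool.or_eq_true] at h
    have e : key (letL l.val * letL l.val) = kMap (runW stepL [l.val, l.val]) kBase := by
      rw [← key_one, ← key_evL]
      simp [evL]
    rcases h with h | h
    · exact Or.inl (key_injective (by rw [e, Nat.eq_of_beq_eq_true h, key_one]))
    · exact Or.inr (key_injective (by
        rw [e, Nat.eq_of_beq_eq_true h, key_iS_two, Nat.eq_of_beq_eq_true base_ok.2.1]))
  have h8 : ∃ l' : Fin 8, letL l = letL l'.val := by
    rcases lt_or_ge l 7 with h | h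
    · exact ⟨⟨l, by omega⟩, rfl⟩
    · exact ⟨7, by simp [letL, not_lt.2 h]⟩
  obtain ⟨l', e⟩ := h8
  rw [e, ← map_mul]
  rcases hl l' with h | h <;> rw [h]
  · exact map_one _
  · exact ab_eq_one.2 iS_two_mem

/-- The value of a parity vector. -/
noncomputable def valF (m : ℕ) : Abelianization fourRu :=
  ∏ l ∈ Finset.range 8, if m.testBit l then ab (letL l) else 1

theorem valF_zero : valF 0 = 1 := by simp [valF]

theorem valF_xor (a b : ℕ) : valF (a ^^^ b) = valF a * valF b := by
  rw [valF, valF, valF, ← Finset.prod_mul_distrib]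
  refine Finset.prod_congr rfl fun l _ => ?_
  rw [Nat.testBit_xor]
  cases a.testBit l <;> cases b.testBit l <;> simp [ab_letL_sq]

theorem valF_sq (a : ℕ) : valF a * valF a = 1 := by rw [← valF_xor, Nat.xor_self, valF_zero]

theorem ab_evL : ∀ w : List ℕ, ab (evL w) = valF (parW w)
  | [] => by simp [evL, parW, valF_zero]
  | l :: w => by
    rw [evL, map_mul, ab_evL w]
    show valF (parW w) * _ = valF (parW w ^^^ (1 <<< (cond (Nat.blt l 7) l 7)))
    rw [valF_xor]
    congr 1
    have : valF (1 <<< (cond (Nat.blt l 7) l 7)) = ab (letL (cond (Nat.blt l 7) l 7)) := by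
      have h8 : cond (Nat.blt l 7) l 7 < 8 := by
        rcases e : Nat.blt l 7
        · simp
        · rw [Nat.blt_eq] at e; simp only [cond_true]; omega
      rw [valF, Finset.prod_eq_single (cond (Nat.blt l 7) l 7)]
      · simp [Nat.one_shiftLeft, Nat.testBit_two_pow_self]
      · intro b _ hb
        simp [Nat.one_shiftLeft, Nat.testBit_two_pow, Ne.symm hb]
      · intro h; exact absurd (Finset.mem_range.2 h8) h
    rw [this]
    rcases e : Nat.blt l 7
    · have h : ¬ l < 7 := fun h => by
        rw [show Nat.blt l 7 = true by rw [Nat.blt_eq]; exact h] at e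
        cases e
      simp [letL, h]
    · rfl

theorem bitB_iff (B i : ℕ) : bitB B i = B.testBit i := by
  simp [bitB, Nat.testBit, Nat.and_one_is_mod, Nat.one_and_eq_mod_two, Nat.shiftRight_eq]
  rcases Nat.mod_two_eq_zero_or_one (B >>> i) with h | h <;> simp [h] <;> rfl

theorem bitB_or {a v i : ℕ} (h : bitB (Nat.lor a (Nat.shiftLeft 1 v)) i = true) :
    bitB a i = true ∨ i = v := by
  rw [bitB_iff, show Nat.lor a (Nat.shiftLeft 1 v) = a ||| (1 <<< v) from rfl, Nat.testBit_or,
    Nat.one_shiftLeft, Nat.testBit_two_pow, Bool.or_eq_true, decide_eq_true_eq] at h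
  rw [bitB_iff]
  exact h.imp id Eq.symm

theorem valF_span : ∀ L : List (List ℕ × ℕ), L.all oddB = true → ∀ v, bitB (spanB L) v = true → valF v = 1
  | [], _, v, h => by
    have : bitB (Nat.lor 0 (Nat.shiftLeft 1 0)) v = true := by
      simpa [spanB] using h
    rcases bitB_or this with h | rfl
    · rw [bitB_iff, Nat.zero_testBit] at h; cases h
    · exact valF_zero
  | e :: L, hL, v, h => by
    simp only [List.all_cons, Bool.and_eq_true] at hL
    have ih := valF_span L hL.2
    have he : valF (parW e.1) = 1 := by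
      obtain ⟨ho, hk⟩ := (Bool.and_eq_true _ _).mp hL.1
      have hpow : evL e.1 ^ e.2 = 1 := by
        rw [← evL_repW]
        refine key_injective ?_
        have := key_evL (repW e.1 e.2) 1
        rw [mul_one, key_one] at this
        rw [this, key_one, Nat.eq_of_beq_eq_true hk]
      have h1 := congrArg ab hpow
      rw [map_pow, ab_evL, map_one] at h1
      have hodd : e.2 % 2 = 1 := Nat.eq_of_beq_eq_true ho
      rw [← Nat.div_add_mod e.2 2, hodd, pow_succ, pow_mul, pow_two, valF_sq, one_pow, one_mul] at h1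
      exact h1
    have key : ∀ n acc, (∀ v, bitB acc v = true → valF v = 1) → ∀ v,
        bitB (Nat.rec (motive := fun _ => ℕ) acc
          (fun v a => cond (bitB (spanB L) v) (Nat.lor a (Nat.shiftLeft 1 (Nat.xor v (parW e.1)))) a) n) v
          = true → valF v = 1 := by
      intro n acc hacc
      induction n with
      | zero => exact hacc
      | succ n hn =>
        intro v hv
        rcases hb : bitB (spanB L) n
        · simp only [hb, cond_false] at hv; exact hn v hv
        · simp only [hb, cond_true] at hv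
          rcases bitB_or hv with h | rfl
          · exact hn v h
          · show valF (n ^^^ parW e.1) = 1
            rw [valF_xor, ih n hb, he, one_mul]
    exact key 256 (spanB L) ih v h

theorem evL_mem {w : List ℕ} (h : evenB w = true) : evL w ∈ commutator fourRu := by
  rw [← ab_eq_one, ab_evL]
  exact valF_span _ odd_ok _ h

theorem tg_comm (j : Fin 3) : tg j.val ∈ commutator fourRu := evL_mem (gen_even_ok j)

theorem evT_comm : ∀ {w : List ℕ}, (∀ a ∈ w, a < 3) → evT w ∈ commutator fourRu
  | [], _ => one_mem _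
  | j :: w, hw => mul_mem (evT_comm fun a ha => hw a (List.mem_cons_of_mem _ ha))
      (tg_comm ⟨j, hw j List.mem_cons_self⟩)

theorem el_comm (i : ℕ) : el i ∈ commutator fourRu := evT_comm (wordT_lt i)

end Cfsg.Agent.H40.Ru2
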